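import Groth.Agent.CohqB.ProjBC

/-!
# `P^n_Y ⟶ P^n_R` for `Y ⟶ Spec R`: cartesian square, closed immersion
-/

set_option autoImplicit false
universe u

open CategoryTheory CategoryTheory.Limits AlgebraicGeometry

namespace Groth.Agent.Gaga.H138.ProjOver

open Groth.Agent.CohqB.ProjBC

variable (n : ℕ)

/-- `P^n_{Y'} ⟶ P^n_Y` is a closed immersion if `Y' ⟶ Y` is. -/
theorem isClosedImmersion_overMap {Y' Y : Scheme.{u}} (g : Y' ⟶ Y) [IsClosedImmersion g] :
    IsClosedImmersion (overMap n g) :=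
  MorphismProperty.of_isPullback (P := @IsClosedImmersion) (isPullback_overMap n g).flip inferInstance

/-- For `g : Y ⟶ Spec R`: `P^n_Y ⟶ P^n_R`. -/
noncomputable def toProj {Y : Scheme.{u}} {R : Type u} [CommRing R] (g : Y ⟶ Spec (CommRingCat.of R)) :
    CohB1.ProjSpaceOver n Y ⟶ CohB1.ProjSpace n R :=
  overMap n g ≫ (projSpaceOverIso n R).hom

theorem isPullback_toProj {Y : Scheme.{u}} {R : Type u} [CommRing R] (g : Y ⟶ Spec (CommRingCat.of R)) :
    IsPullback (toProj n g) (CohB1.ProjSpaceOver.toBase n Y) (CohB1.ProjSpace.toSpec n R) g := by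
  have h2 : IsPullback (projSpaceOverIso n R).hom
      (CohB1.ProjSpaceOver.toBase n (Spec (CommRingCat.of R))) (CohB1.ProjSpace.toSpec n R)
      (𝟙 (Spec (CommRingCat.of R))) :=
    IsPullback.of_horiz_isIso ⟨by rw [projSpaceOverIso_hom_toSpec, Category.comp_id]⟩
  have h3 := (isPullback_overMap n g).paste_horiz h2
  rwa [Category.comp_id] at h3

@[reassoc]
theorem toProj_toSpec {Y : Scheme.{u}} {R : Type u} [CommRing R] (g : Y ⟶ Spec (CommRingCat.of R)) :
    toProj n g ≫ CohB1.ProjSpace.toSpec n R = CohB1.ProjSpaceOver.toBase n Y ≫ g :=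
  (isPullback_toProj n g).w

instance isClosedImmersion_toProj {Y : Scheme.{u}} {R : Type u} [CommRing R]
    (g : Y ⟶ Spec (CommRingCat.of R)) [IsClosedImmersion g] : IsClosedImmersion (toProj n g) :=
  MorphismProperty.of_isPullback (P := @IsClosedImmersion) (isPullback_toProj n g).flip inferInstance

end Groth.Agent.Gaga.H138.ProjOver
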